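import Mathlib
import Cfsg.Agent.Lib.Helper51.Zass.Defs
import Cfsg.Agent.Lib.Helper17.Simple
import Cfsg.Agent.S0016
import Cfsg.Agent.S3378

set_option autoImplicit false

/-!
# ZASS [FIN-C2]: a plane with at most one involution is `SL(2,5)`

Step (7) of [FIN-C]: a finite group `H` with at most one involution and a surjection onto `A₅`
with kernel of order `2` is isomorphic to `SL(2, 5)` (through `Cfsg.Agent.S3378.result.1`).
-/

namespace Cfsg.Agent.Lib.Helper15.Zass

open Cfsg.Agent.Lib.Helper51.Zass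

universe u

set_option maxRecDepth 100000 in
/-- an even permutation of five points whose fourth power is `1` has square `1`. -/
theorem perm5_no_four : ∀ σ : Equiv.Perm (Fin 5), σ ^ 4 = 1 → Equiv.Perm.sign σ = 1 →
    σ ^ 2 = 1 := by
  decide +kernel

theorem alt5_no_four (σ : alternatingGroup (Fin 5)) (h : σ ^ 4 = 1) : σ ^ 2 = 1 := by
  apply Subtype.ext
  have h4 : (σ : Equiv.Perm (Fin 5)) ^ 4 = 1 := by
    have := congrArg (fun z : alternatingGroup (Fin 5) => (z : Equiv.Perm (Fin 5))) h
    simpa using this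
  have hs : Equiv.Perm.sign (σ : Equiv.Perm (Fin 5)) = 1 := Equiv.Perm.mem_alternatingGroup.mp σ.2
  simpa using perm5_no_four _ h4 hs

theorem card_alt5 : Nat.card (alternatingGroup (Fin 5)) = 60 := by
  have h := two_mul_card_alternatingGroup (α := Fin 5)
  rw [Fintype.card_perm, Fintype.card_fin] at h
  rw [Nat.card_eq_fintype_card]
  have h5 : Nat.factorial 5 = 120 := by decide
  omega

theorem alt5_not_solvable : ¬ Group.IsSolvable (alternatingGroup (Fin 5)) := by
  intro h
  apply Equiv.Perm.not_isSolvable_fin_5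
  have h2 : Group.IsSolvable ℤˣ := Group.isSolvable_of_comm (fun a b => mul_comm a b)
  refine Group.isSolvable_of_ker_le_range (alternatingGroup (Fin 5)).subtype
    (Equiv.Perm.sign : Equiv.Perm (Fin 5) →* ℤˣ) ?_
  intro x hx
  rw [Subgroup.range_subtype]
  exact hx

/-- a subgroup of order `2` is generated by an element of order `2`. -/
theorem exists_zpowers_of_card_two {K : Type*} [Group K] (A : Subgroup K)
    (h : Nat.card A = 2) : ∃ a : K, orderOf a = 2 ∧ A = Subgroup.zpowers a := by
  have hfin : Finite A := Nat.finite_of_card_ne_zero (by rw [h]; norm_num)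
  have hnt : Nontrivial A := Finite.one_lt_card_iff_nontrivial.mp (by rw [h]; norm_num)
  obtain ⟨a, ha, ha1⟩ := (Subgroup.nontrivial_iff_exists_ne_one A).mp hnt
  have hdvd : orderOf a ∣ 2 := h ▸ Subgroup.orderOf_dvd_natCard A ha
  have ho : orderOf a = 2 := by
    rcases (Nat.dvd_prime Nat.prime_two).mp hdvd with h1 | h2
    · exact absurd (orderOf_eq_one_iff.mp h1) ha1
    · exact h2
  refine ⟨a, ho, ?_⟩
  symm
  apply Subgroup.eq_of_le_of_card_ge
  · rw [Subgroup.zpowers_le]; exact ha
  · rw [Nat.card_zpowers, ho, h]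

/-- The core statement: at most one involution + a surjection onto `A₅` with kernel of order
`2` forces `SL(2,5)`. -/
theorem plane_equiv (H : Type u) [Group H] [Finite H]
    (hUI : ∀ s t : H, orderOf s = 2 → orderOf t = 2 → s = t)
    (f : H →* alternatingGroup (Fin 5)) (hf : Function.Surjective f)
    (hk : Nat.card f.ker = 2) :
    Nonempty (H ≃* Matrix.SpecialLinearGroup (Fin 2) (ZMod 5)) := by
  have : Fact (Nat.Prime 2) := ⟨Nat.prime_two⟩
  -- the order
  have h120 : Nat.card H = 120 := by
    have h1 := Subgroup.card_mul_index f.ker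
    rw [Subgroup.index_ker, MonoidHom.range_eq_top.mpr hf, Subgroup.card_top, card_alt5, hk] at h1
    omega
  -- non-solvable
  have hns : ¬ Group.IsSolvable H := fun hs => alt5_not_solvable (Group.isSolvable_of_surjective hf)
  -- the kernel
  obtain ⟨c, hc, hkc⟩ := exists_zpowers_of_card_two f.ker hk
  refine Cfsg.Agent.S3378.result.1 H h120 hns ?_
  intro P
  have hP8 : Nat.card (P : Subgroup H) = 2 ^ 3 :=
    Cfsg.Agent.Lib.Helper17.card_sylow_eq_of_card_eq 2 3 15 (by rw [h120]; norm_num) (by decide) P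
  have huniq : ∀ A B : Subgroup (P : Subgroup H), Nat.card A = 2 → Nat.card B = 2 → A = B := by
    intro A B hA hB
    obtain ⟨a, ha, rfl⟩ := exists_zpowers_of_card_two A hA
    obtain ⟨b, hb, rfl⟩ := exists_zpowers_of_card_two B hB
    have hab : (a : H) = (b : H) :=
      hUI _ _ (by rw [Subgroup.orderOf_coe]; exact ha) (by rw [Subgroup.orderOf_coe]; exact hb)
    rw [Subtype.ext hab]
  rcases Cfsg.Agent.S0016.result (G := (P : Subgroup H)) 2 P.isPGroup' huniq with hcyc | ⟨-, n, ⟨e⟩⟩
  · exfalso
    obtain ⟨x, hx⟩ := hcyc.exists_ofOrder_eq_natCard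
    rw [hP8] at hx
    have hx8 : orderOf (x : H) = 8 := by rw [Subgroup.orderOf_coe]; exact hx
    -- `x ^ 4` is the involution, which spans the kernel
    have h4 : orderOf ((x : H) ^ 4) = 2 := by
      rw [orderOf_pow' _ (by norm_num), hx8]
      rfl
    have hc4 : (x : H) ^ 4 = c := hUI _ _ h4 hc
    have hker4 : (x : H) ^ 4 ∈ f.ker := by
      rw [hkc, hc4]; exact Subgroup.mem_zpowers c
    have hf4 : f (x : H) ^ 4 = 1 := by
      rw [← map_pow]; exact hker4
    have hf2 := alt5_no_four _ hf4
    have hker2 : (x : H) ^ 2 ∈ f.ker := by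
      rw [MonoidHom.mem_ker, map_pow]; exact hf2
    have hd : orderOf ((x : H) ^ 2) ∣ 2 := by
      have := Subgroup.orderOf_dvd_natCard f.ker hker2
      rwa [hk] at this
    have h2 : orderOf ((x : H) ^ 2) = 4 := by
      rw [orderOf_pow' _ (by norm_num), hx8]
      rfl
    rw [h2] at hd
    exact absurd hd (by decide)
  · have hcard : Nat.card (QuaternionGroup (2 ^ n)) = 8 := by
      rw [← Nat.card_congr e.toEquiv, hP8]
      rfl
    have hne : NeZero (2 ^ n) := ⟨by positivity⟩
    rw [Nat.card_eq_fintype_card, QuaternionGroup.card] at hcard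
    have h2n : 2 ^ n = 2 := by omega
    have key : ∀ k : ℕ, k = 2 → ((P : Subgroup H) ≃* QuaternionGroup k) →
        Nonempty ((P : Subgroup H) ≃* QuaternionGroup 2) := by
      intro k hk2 e'
      subst hk2
      exact ⟨e'⟩
    exact key _ h2n e

/-- a plane in a group with at most one involution is `SL(2,5)`. -/
theorem plane_equiv_sub (G : Type u) [Group G] [Finite G]
    (hUI : ∀ s t : G, orderOf s = 2 → orderOf t = 2 → s = t) (N : Subgroup G)
    (hpl : IsPlane N) : Nonempty (N ≃* Matrix.SpecialLinearGroup (Fin 2) (ZMod 5)) := by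
  obtain ⟨f, hf, hk⟩ := hpl
  refine plane_equiv N ?_ f hf hk
  intro s t hs ht
  exact Subtype.ext (hUI _ _ (by rw [Subgroup.orderOf_coe]; exact hs)
    (by rw [Subgroup.orderOf_coe]; exact ht))

/-- [FIN-C2] (step (7) of [FIN-C]). -/
theorem finC2 (G : Type u) [Group G] [Finite G]
    (hUI : ∀ s t : G, orderOf s = 2 → orderOf t = 2 → s = t)
    (hpl : IsPlane (⊤ : Subgroup G)) :
    Nonempty (G ≃* Matrix.SpecialLinearGroup (Fin 2) (ZMod 5)) := by
  obtain ⟨e⟩ := plane_equiv_sub G hUI ⊤ hpl
  exact ⟨Subgroup.topEquiv.symm.trans e⟩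

/-- [FIN-C2], in the form used at the end of [FIN-C]. -/
theorem finC2' (G : Type u) [Group G] [Finite G]
    (hUI : ∀ s t : G, orderOf s = 2 → orderOf t = 2 → s = t)
    (htop : N3 G = ⊤) (hpl : IsPlane (N3 G)) :
    Nonempty (G ≃* Matrix.SpecialLinearGroup (Fin 2) (ZMod 5)) := by
  rw [htop] at hpl
  exact finC2 G hUI hpl

end Cfsg.Agent.Lib.Helper15.Zass
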